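import Cfsg.Agent.H542.EPX.Cells

/-!
# S5745: the assembly from the cells (helper542)
-/

set_option autoImplicit false
set_option linter.unusedSectionVars false

namespace Cfsg.Agent.H542.EPX

open MulAction Subgroup Cfsg.Agent.H284 Cfsg.Agent.H209.EPX

section Map

variable {G G' : Type*} [Group G] [Group G'] (e : G ≃* G')

theorem cj_map (x : G) (H : Subgroup G) : cj (e x) (H.map e.toMonoidHom) = (cj x H).map e.toMonoidHom := by
  ext g
  rw [mem_cj]
  constructor
  · rintro ⟨h, hh, he⟩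
    refine ⟨x * h * x⁻¹, conj_mem_cj hh, ?_⟩
    have : g = e x * ((e x)⁻¹ * g * e x) * (e x)⁻¹ := by group
    rw [this, ← he]
    simp
  · rintro ⟨y, hy, rfl⟩
    rw [SetLike.mem_coe, mem_cj] at hy
    exact ⟨_, hy, by simp⟩

/-- extremely primitive stabilisers are invariant under isomorphisms -/
theorem EP_map {H : Subgroup G} (h : EP H) : EP (H.map e.toMonoidHom) := by
  have key : ∀ K : Subgroup G', (K.map e.symm.toMonoidHom).map e.toMonoidHom = K := fun K => by
    rw [Subgroup.map_map]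
    have : e.toMonoidHom.comp e.symm.toMonoidHom = MonoidHom.id G' := by ext x; simp
    rw [this, Subgroup.map_id]
  have key' : ∀ K : Subgroup G, (K.map e.toMonoidHom).map e.symm.toMonoidHom = K := fun K => by
    rw [Subgroup.map_map]
    have : e.symm.toMonoidHom.comp e.toMonoidHom = MonoidHom.id G := by ext x; simp
    rw [this, Subgroup.map_id]
  have hinf : ∀ A B : Subgroup G, (A ⊓ B).map e.toMonoidHom = A.map e.toMonoidHom ⊓ B.map e.toMonoidHom :=
    fun A B => Subgroup.map_inf A B e.toMonoidHom e.injective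
  refine ⟨⟨?_, ?_⟩, ?_, ?_, ?_⟩
  · intro ht
    apply h.max.1
    rw [← key' H, ht]
    exact Subgroup.map_top_of_surjective _ e.symm.surjective
  · intro K hK
    have h1 : H < K.map e.symm.toMonoidHom := by
      refine lt_of_le_of_ne ?_ ?_
      · rw [← key' H]
        exact Subgroup.map_mono hK.le
      · intro he
        apply hK.ne
        rw [he, key]
    have h2 := h.max.2 _ h1
    rw [← key K, h2]
    exact Subgroup.map_top_of_surjective _ e.surjective
  · rw [Subgroup.eq_bot_iff_forall]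
    intro x hx
    have h1 : e.symm x ∈ H.normalCore := by
      intro g
      have := hx (e g)
      rw [show e g * x * (e g)⁻¹ = e (g * e.symm x * g⁻¹) by simp] at this
      obtain ⟨y, hy, hyx⟩ := this
      have h3 : y = g * e.symm x * g⁻¹ := e.injective hyx
      rwa [← h3]
    rw [h.core, mem_bot] at h1
    rw [← e.apply_symm_apply x, h1, map_one]
  · intro h0
    apply h.ne
    rw [← key' H, h0]
    exact Subgroup.map_bot _
  · intro x hx L hL hLH
    have e1 : x = e (e.symm x) := (e.apply_symm_apply x).symm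
    have hx' : e.symm x ∉ H := fun h1 => hx (by rw [e1]; exact ⟨_, h1, rfl⟩)
    rw [e1, cj_map, ← hinf] at hL ⊢
    have h2 := h.two _ hx' (L.map e.symm.toMonoidHom) (by
      have := Subgroup.map_mono (f := e.symm.toMonoidHom) hL
      rwa [key'] at this) (by
      have := Subgroup.map_mono (f := e.symm.toMonoidHom) hLH
      rwa [key'] at this)
    rcases h2 with h2 | h2
    · left
      rw [← key L, h2]
    · right
      rw [← key L, h2]

end Map

section

variable {G : Type} [Group G] [Finite G]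

theorem Kill.false {p : ℕ} (K : Kill p G) {H : Subgroup G} (h : EP H) : False := by
  rcases trichotomy h with ⟨X, hX⟩ | ⟨N, N', T, i, k, e, hN⟩ | ⟨N, T, i, k, e, hN⟩
  · exact K.aff H X hX
  · exact K.two H N N' T k e hN
  · by_cases hown : IsLieTypeChar p T
    · exact K.own H N T k e hN hown
    · have hk := hN.pos
      rcases (by omega : k = 1 ∨ 2 ≤ k) with rfl | hk2
      · by_cases hs : IsSporadicGroup T
        · exact K.spor H N T e hN hs
        · exact K.cross H N T e hN hs hown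
      · exact K.crossk H N T k e hk2 hN hown

end

theorem Kill.noEP {G : Type} [Group G] [Finite G] {p : ℕ} (K : Kill p G) : NoEP G := fun _ h => K.false h

/-- transport -/
theorem kill_of {G : Type*} [Group G] {G' : Type} [Group G'] [Finite G'] {p : ℕ} (K : Kill p G')
    (e : G ≃* G') {H : Subgroup G} (h : EP H) : False :=
  K.false (EP_map e h)

/-- the characteristic of a finite field -/
theorem exists_char (F : Type) [Field F] [Fintype F] : ∃ (p : ℕ) (_ : Fact p.Prime), CharP F p := by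
  obtain ⟨p, hp⟩ := CharP.exists F
  exact ⟨p, ⟨CharP.char_is_prime F p⟩, hp⟩

theorem kill_all {G : Type*} [Group G] [IsSimpleGroup G] {G' : Type} [Group G']
    (K : ∀ [IsSimpleGroup G'], NoEP G') (e : G ≃* G') {H : Subgroup G} (h : EP H) : False := by
  have i2 : IsSimpleGroup G' := e.symm.isSimpleGroup
  exact K _ (EP_map e h)

/-- **The assembly.** -/
theorem main_EP (C : Cells) {G : Type*} [Group G] [Finite G] [hsim : IsSimpleGroup G]
    (hG : Cfsg.IsExceptionalLieType G) {H : Subgroup G} (h : EP H) :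
    (∃ (F : Type) (_ : Field F) (_ : Fintype F), Fintype.card F = 4 ∧ Nonempty (G ≃* Cfsg.Lie.chevG2.group F)) ∧
      Cfsg.Spor.IsoJ2 ↥H := by
  classical
  have tr : ∀ {G' : Type} [Group G'] (_ : G ≃* G'), IsSimpleGroup G' ∧ Finite G' := fun e =>
    ⟨e.symm.isSimpleGroup, Finite.of_equiv G e.toEquiv⟩
  rcases hG with ⟨F, i1, i2, hF, ⟨e⟩⟩ | ⟨F, i1, i2, ⟨e⟩⟩ | ⟨F, i1, i2, ⟨e⟩⟩ | ⟨F, i1, i2, ⟨e⟩⟩ | ⟨F, i1, i2, ⟨e⟩⟩ |
    ⟨K, i1, i2, q, hq, hK, ⟨e⟩⟩ | ⟨K, i1, i2, q, hq, hK, ⟨e⟩⟩ | ⟨K, i1, i2, m, hm, hK, ⟨e⟩⟩ |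
    ⟨K, i1, i2, m, hm, hK, ⟨e⟩⟩ | ⟨K, i1, i2, m, hm, hK, ⟨e⟩⟩ | ht
  · obtain ⟨i3, i4⟩ := tr e
    obtain ⟨p, i5, i6⟩ := exists_char F
    have h' := EP_map e h
    have key : Fintype.card F = 4 ∧ Cfsg.Spor.IsoJ2 ↥(H.map e.toMonoidHom) := by
      rcases trichotomy h' with ⟨X, hX⟩ | ⟨N, N', T, i, k, e', hN⟩ | ⟨N, T, i, k, e', hN⟩
      · exact (C.g2_aff F p hF _ X hX).elim
      · exact (C.g2_two F p hF _ N N' T k e' hN).elim
      · by_cases hown : IsLieTypeChar p T
        · exact (C.g2_own F p hF _ N T k e' hN hown).elim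
        · have hk := hN.pos
          rcases (by omega : k = 1 ∨ 2 ≤ k) with rfl | hk2
          · by_cases hs : IsSporadicGroup T
            · exact C.g2_spor F p hF _ N T e' hN hs
            · exact (C.g2_cross F p hF _ N T e' hN hs hown).elim
          · exact (C.g2_crossk F p hF _ N T k e' hk2 hN hown).elim
    refine ⟨⟨F, i1, i2, key.1, ⟨e⟩⟩, ?_⟩
    obtain ⟨f⟩ := key.2
    exact ⟨(H.equivMapOfInjective e.toMonoidHom e.injective).trans f⟩
  · obtain ⟨i3, i4⟩ := tr e
    obtain ⟨p, i5, i6⟩ := exists_char F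
    exact (kill_of (C.f4 F p) e h).elim
  · obtain ⟨i3, i4⟩ := tr e
    obtain ⟨p, i5, i6⟩ := exists_char F
    exact (kill_of (C.e6 F p) e h).elim
  · obtain ⟨i3, i4⟩ := tr e
    obtain ⟨p, i5, i6⟩ := exists_char F
    exact (kill_of (C.e7 F p) e h).elim
  · obtain ⟨i3, i4⟩ := tr e
    obtain ⟨p, i5, i6⟩ := exists_char F
    exact (kill_of (C.e8 F p) e h).elim
  · obtain ⟨i3, i4⟩ := tr e
    obtain ⟨p, i5, i6⟩ := exists_char K
    exact (kill_of (C.te6 K p q hq hK) e h).elim
  · obtain ⟨i3, i4⟩ := tr e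
    obtain ⟨p, i5, i6⟩ := exists_char K
    exact (kill_of (C.td4 K p q hq hK) e h).elim
  · exact (kill_all (C.sz K m hm hK) e h).elim
  · exact (kill_all (C.ree K m hm hK) e h).elim
  · exact (kill_all (C.tf4 K m hm hK) e h).elim
  · obtain ⟨e⟩ := ht
    exact (kill_all C.tits e h).elim

/-- **S5745 from the cells.** -/
theorem main (C : Cells) {G Ω : Type*} [Group G] [Finite G] [IsSimpleGroup G] (hG : Cfsg.IsExceptionalLieType G)
    [MulAction G Ω] [FaithfulSMul G Ω] [Fintype Ω] (hprim : MulAction.IsPreprimitive G Ω)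
    (hH : ∀ α : Ω, MulAction.stabilizer G α ≠ ⊥)
    (hep : ∀ (α : Ω) (x : G), x ∉ MulAction.stabilizer G α →
      IsCoatom ((MulAction.stabilizer G α ⊓ (MulAction.stabilizer G α).map (MulAut.conj x).toMonoidHom).subgroupOf
        (MulAction.stabilizer G α))) :
    (∃ (F : Type) (_ : Field F) (_ : Fintype F), Fintype.card F = 4 ∧ Nonempty (G ≃* Cfsg.Lie.chevG2.group F)) ∧
    ∀ α : Ω, Cfsg.Spor.IsoJ2 (MulAction.stabilizer G α) := by
  have hA : EPA G Ω := EPA.of_isCoatom hprim hH hep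
  have hne : Nonempty Ω := by
    by_contra hcon
    rw [not_nonempty_iff] at hcon
    obtain ⟨a, b, hab⟩ := exists_pair_ne G
    exact hab (FaithfulSMul.eq_of_smul_eq_smul (α := Ω) fun x => hcon.elim x)
  obtain ⟨α⟩ := hne
  refine ⟨(main_EP C hG (hA.toEP α)).1, fun β => (main_EP C hG (hA.toEP β)).2⟩

end Cfsg.Agent.H542.EPX
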