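import Cfsg.Agent.H542.EPX.Cells
import Cfsg.Agent.H542.EPX.OwnGlue
import Cfsg.Agent.H742.EX.Q2Grp
import Cfsg.Agent.KFacts.RgdFiltTwAll
import Cfsg.Agent.KFacts.RgdFiltChev

/-!
# S5745: `OwnQ2` of the families from the general theorem (helper542)
-/

set_option autoImplicit false

namespace Cfsg.Agent.H542.EPX

open Cfsg Cfsg.Agent.H284 Cfsg.Agent.H209.EPX Cfsg.Agent.H742.EX.Q2 Cfsg.Agent.KFacts.RgdFilt
  Cfsg.Agent.KFacts.RgdBorelTits

/-- the general theorem on the socles over the field with two elements -/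
def QTwoAll : Prop := ∀ (G : Type) [Group G] [Finite G] [IsSimpleGroup G] (F : Fam) (f : ℕ), HasFilt 2 G →
  IsOrd F f G → okF F f = true → OwnQ2 G

theorem exists_two_pow (F : Type) [Field F] [Fintype F] [CharP F 2] : ∃ f, 1 ≤ f ∧ Fintype.card F = 2 ^ f := by
  obtain ⟨n, _, hn⟩ := FiniteField.card F 2
  exact ⟨n, n.pos, hn⟩

theorem exists_two_pow' {K : Type} [Field K] [Fintype K] [CharP K 2] {q c : ℕ} (hc : c ≠ 0)
    (h : Fintype.card K = q ^ c) : ∃ f, 1 ≤ f ∧ q = 2 ^ f := by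
  obtain ⟨n, hn1, hn⟩ := exists_two_pow K
  have h1 : q ∣ 2 ^ n := by
    rw [← hn, h]
    exact dvd_pow_self q hc
  obtain ⟨f, _, hf⟩ := (Nat.dvd_prime_pow Nat.prime_two).1 h1
  refine ⟨f, ?_, hf⟩
  by_contra hf0
  have hf1 : f = 0 := by omega
  rw [hf1, pow_zero] at hf
  rw [hf, one_pow] at h
  have := Fintype.one_lt_card (α := K)
  omega

section

variable (Q : QTwoAll)

include Q

theorem q2_e8 (F : Type) [Field F] [Fintype F] (p : ℕ) [Fact p.Prime] [CharP F p]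
    [IsSimpleGroup ↥(Lie.chevE8.group F)] (h : p = 2) : OwnQ2 ↥(Lie.chevE8.group F) := by
  subst h
  obtain ⟨f, hf, hF⟩ := exists_two_pow F
  exact Q _ .e8 f (KFacts.RgdFiltChev.hasFilt_E8 F 2) (fam_e8 hF) (by simpa [okF] using hf)

theorem q2_e7 (F : Type) [Field F] [Fintype F] (p : ℕ) [Fact p.Prime] [CharP F p]
    [IsSimpleGroup ↥(Lie.chevE7.group F)] (h : p = 2) : OwnQ2 ↥(Lie.chevE7.group F) := by
  subst h
  obtain ⟨f, hf, hF⟩ := exists_two_pow F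
  exact Q _ .e7 f (KFacts.RgdFiltChev.hasFilt_E7 F 2) (fam_e7 hF) (by simpa [okF] using hf)

theorem q2_e6 (F : Type) [Field F] [Fintype F] (p : ℕ) [Fact p.Prime] [CharP F p]
    [IsSimpleGroup ↥(Lie.chevE6.group F)] (h : p = 2) : OwnQ2 ↥(Lie.chevE6.group F) := by
  subst h
  obtain ⟨f, hf, hF⟩ := exists_two_pow F
  exact Q _ .e6 f (KFacts.RgdFiltChev.hasFilt_E6 F 2) (fam_e6 hF) (by simpa [okF] using hf)

theorem q2_f4 (F : Type) [Field F] [Fintype F] (p : ℕ) [Fact p.Prime] [CharP F p]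
    [IsSimpleGroup ↥(Lie.chevF4.group F)] (h : p = 2) : OwnQ2 ↥(Lie.chevF4.group F) := by
  subst h
  obtain ⟨f, hf, hF⟩ := exists_two_pow F
  exact Q _ .f4 f (KFacts.RgdFiltChev.hasFilt_F4 F 2) (fam_f4 hF) (by simpa [okF] using hf)

theorem q2_g2 (F : Type) [Field F] [Fintype F] (p : ℕ) [Fact p.Prime] [CharP F p]
    [IsSimpleGroup ↥(Lie.chevG2.group F)] (h3 : 3 ≤ Fintype.card F) (h : p = 2) :
    OwnQ2 ↥(Lie.chevG2.group F) := by
  subst h
  obtain ⟨f, hf, hF⟩ := exists_two_pow F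
  have hf2 : 2 ≤ f := by
    by_contra hcon
    have : f = 1 := by omega
    rw [this] at hF
    omega
  exact Q _ .g2 f (KFacts.RgdFiltChev.hasFilt_G2 F 2) (fam_g2 hF) (by simpa [okF] using hf2)

theorem q2_te6 (K : Type) [Field K] [Fintype K] (p q : ℕ) [Fact p.Prime] [CharP K p]
    [IsSimpleGroup ↥(Lie.twistedE6 K q)] (hq : IsPrimePow q) (hK : Fintype.card K = q ^ 2) (h : p = 2) :
    OwnQ2 ↥(Lie.twistedE6 K q) := by
  subst h
  obtain ⟨f, hf, rfl⟩ := exists_two_pow' (by norm_num) hK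
  exact Q _ .te6 f (KFacts.RgdFiltTwAll.hasFilt_E6 hq hK 2) (fam_te6 hf hK) (by simpa [okF] using hf)

theorem q2_td4 (K : Type) [Field K] [Fintype K] (p q : ℕ) [Fact p.Prime] [CharP K p]
    [IsSimpleGroup ↥(Lie.twistedD4 K q)] (hq : IsPrimePow q) (hK : Fintype.card K = q ^ 3) (h : p = 2) :
    OwnQ2 ↥(Lie.twistedD4 K q) := by
  subst h
  obtain ⟨f, hf, rfl⟩ := exists_two_pow' (by norm_num) hK
  exact Q _ .td4 f (KFacts.RgdFiltTwAll.hasFilt_D4 hq hK 2) (fam_td4 hf hK) (by simpa [okF] using hf)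

end

end Cfsg.Agent.H542.EPX
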